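import Mathlib
import Cfsg.Agent.Lib.Helper49.RUW.Defs

/-!
# RUW (S3174/S3175) package [FIXSTEP]: one step of the fixed-point chain

`P/Z` elementary abelian, `g` normalizes `P`, `g²` trivial on `P/Z`, `P' = C_P(g mod Z)`: then
`|P| |Z| ≤ |P'|²`, with surjectivity of `cg g` (mod `Z`) onto `P'` in the equality case.
-/

set_option autoImplicit false

namespace Cfsg.Agent.Lib.Helper20.RUW

open Cfsg.Agent.Lib.Helper49.RUW

universe u

theorem pkgFixStep : PkgFixStep.{u} := by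
  intro T _ _ P Z g hZn hZP hsq hcomm hgP hgg
  have : Z.Normal := hZn
  obtain ⟨π, hπdef⟩ : ∃ π : T →* T ⧸ Z, π = QuotientGroup.mk' Z := ⟨_, rfl⟩
  have hπ : ∀ x : T, π x = 1 ↔ x ∈ Z := by
    intro x
    rw [hπdef]
    exact QuotientGroup.eq_one_iff x
  have hcg : ∀ p ∈ P, cg g p ∈ P := fun p hp => P.mul_mem (P.inv_mem hp) (hgP p hp)
  -- images of elements of `P` commute
  have hπc : ∀ p ∈ P, ∀ q ∈ P, π p * π q = π q * π p := by
    intro p hp q hq
    have h := (hπ _).2 (hcomm p hp q hq)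
    rw [map_mul, map_mul, map_mul, map_inv, map_inv] at h
    calc π p * π q = (π p * π q * (π p)⁻¹ * (π q)⁻¹) * (π q * π p) := by group
      _ = π q * π p := by rw [h, one_mul]
  obtain ⟨P', hP'⟩ : ∃ P' : Subgroup T, ∀ p, p ∈ P' ↔ p ∈ P ∧ cg g p ∈ Z :=
    ⟨{ carrier := {p | p ∈ P ∧ cg g p ∈ Z}
       mul_mem' := by
         rintro p q ⟨hp, hpz⟩ ⟨hq, hqz⟩
         refine ⟨P.mul_mem hp hq, ?_⟩
         have e : cg g (p * q) = q⁻¹ * cg g p * q⁻¹⁻¹ * cg g q := by unfold cg; group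
         rw [e]
         exact Z.mul_mem (hZn.conj_mem (cg g p) hpz q⁻¹) hqz
       one_mem' := ⟨P.one_mem, by unfold cg; simp⟩
       inv_mem' := by
         rintro p ⟨hp, hpz⟩
         refine ⟨P.inv_mem hp, ?_⟩
         have e : cg g p⁻¹ = (p * cg g p * p⁻¹)⁻¹ := by unfold cg; group
         rw [e]
         exact Z.inv_mem (hZn.conj_mem (cg g p) hpz p) }, fun p => Iff.rfl⟩
  have hP'P : P' ≤ P := fun p hp => ((hP' p).1 hp).1
  have hZP' : Z ≤ P' := fun z hz =>
    (hP' z).2 ⟨hZP hz, Z.mul_mem (Z.inv_mem hz) (hZn.conj_mem z hz g)⟩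
  have hi : ∀ p ∈ P, cg g p ∈ P' := by
    intro p hp
    refine (hP' _).2 ⟨hcg p hp, ?_⟩
    have e : cg g (cg g p) =
        ((g * p * g⁻¹)⁻¹ * p) * ((g * p * g⁻¹)⁻¹ * p) * cg (g * g) p := by
      unfold cg; group
    rw [e]
    exact Z.mul_mem (hsq _ (P.mul_mem (P.inv_mem (hgP p hp)) hp)) (hgg p hp)
  have hmul : ∀ p q : ↥P,
      π (cg g ((p * q : ↥P) : T)) = π (cg g (p : T)) * π (cg g (q : T)) := by
    intro p q
    have e : cg g ((p : T) * (q : T)) = (q : T)⁻¹ * cg g (p : T) * (q : T) * cg g (q : T) := by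
      unfold cg; group
    rw [Subgroup.coe_mul, e, map_mul, map_mul, map_mul, map_inv]
    have hc := hπc (q : T) q.2 (cg g (p : T)) (hcg p p.2)
    calc (π (q : T))⁻¹ * π (cg g (p : T)) * π (q : T) * π (cg g (q : T))
        = (π (q : T))⁻¹ * (π (cg g (p : T)) * π (q : T)) * π (cg g (q : T)) := by group
      _ = (π (q : T))⁻¹ * (π (q : T) * π (cg g (p : T))) * π (cg g (q : T)) := by rw [← hc]
      _ = π (cg g (p : T)) * π (cg g (q : T)) := by group
  obtain ⟨ψ, hψ⟩ : ∃ ψ : ↥P →* T ⧸ Z, ∀ p : ↥P, ψ p = π (cg g (p : T)) :=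
    ⟨MonoidHom.mk' (fun p : ↥P => π (cg g (p : T))) hmul, fun p => rfl⟩
  obtain ⟨θ, hθ⟩ : ∃ θ : ↥P' →* T ⧸ Z, ∀ x : ↥P', θ x = π (x : T) :=
    ⟨π.comp P'.subtype, fun x => rfl⟩
  have hker1 : ψ.ker = P'.subgroupOf P := by
    ext p
    rw [MonoidHom.mem_ker, hψ, hπ, Subgroup.mem_subgroupOf, hP']
    exact ⟨fun h => ⟨p.2, h⟩, fun h => h.2⟩
  have hker2 : θ.ker = Z.subgroupOf P' := by
    ext x
    rw [MonoidHom.mem_ker, hθ, hπ, Subgroup.mem_subgroupOf]
  have hc1 : Nat.card ψ.ker = Nat.card P' := by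
    rw [hker1]
    exact Nat.card_congr (Subgroup.subgroupOfEquivOfLe hP'P).toEquiv
  have hc2 : Nat.card θ.ker = Nat.card Z := by
    rw [hker2]
    exact Nat.card_congr (Subgroup.subgroupOfEquivOfLe hZP').toEquiv
  have ha : Nat.card ψ.ker * Nat.card ψ.range = Nat.card P := by
    rw [← Subgroup.index_ker, Subgroup.card_mul_index]
  have hb : Nat.card θ.ker * Nat.card θ.range = Nat.card P' := by
    rw [← Subgroup.index_ker, Subgroup.card_mul_index]
  have hle : ψ.range ≤ θ.range := by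
    rintro _ ⟨p, rfl⟩
    exact ⟨⟨cg g (p : T), hi p p.2⟩, by rw [hθ, hψ]⟩
  have hle' : Nat.card ψ.range ≤ Nat.card θ.range := Subgroup.card_le_of_le hle
  refine ⟨P', hP', hi, ?_, ?_⟩
  · calc Nat.card P * Nat.card Z = Nat.card P' * Nat.card ψ.range * Nat.card Z := by
          rw [← ha, hc1]
      _ ≤ Nat.card P' * Nat.card θ.range * Nat.card Z := by gcongr
      _ = Nat.card P' * (Nat.card θ.ker * Nat.card θ.range) := by rw [hc2]; ring
      _ = Nat.card P' ^ 2 := by rw [hb, pow_two]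
  · intro heq q hq
    have hpos1 : 0 < Nat.card P' := Nat.card_pos
    have hpos2 : 0 < Nat.card Z := Nat.card_pos
    have hcardeq : Nat.card ψ.range = Nat.card θ.range := by
      have h1 : Nat.card P' * Nat.card ψ.range * Nat.card Z =
          Nat.card P' * Nat.card θ.range * Nat.card Z := by
        calc Nat.card P' * Nat.card ψ.range * Nat.card Z = Nat.card P * Nat.card Z := by
              rw [← ha, hc1]
          _ = Nat.card P' ^ 2 := heq
          _ = Nat.card P' * (Nat.card θ.ker * Nat.card θ.range) := by rw [hb, pow_two]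
          _ = Nat.card P' * Nat.card θ.range * Nat.card Z := by rw [hc2]; ring
      have h2 := Nat.eq_of_mul_eq_mul_right hpos2 h1
      exact Nat.eq_of_mul_eq_mul_left hpos1 h2
    have hrange : ψ.range = θ.range :=
      Subgroup.eq_of_le_of_card_ge hle (le_of_eq hcardeq.symm)
    have hmem : θ ⟨q, hq⟩ ∈ ψ.range := by
      rw [hrange]
      exact ⟨_, rfl⟩
    obtain ⟨p, hp⟩ := hmem
    refine ⟨p, p.2, ?_⟩
    rw [← hπ, map_mul, map_inv, ← hψ, hp, hθ]
    exact inv_mul_cancel _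

end Cfsg.Agent.Lib.Helper20.RUW
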