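import Mathlib
import Cfsg.Agent.Lib.Helper49.RUW.Defs

/-!
# RUW (S3174/S3175) package [SQG]: for `g ∈ A \ W` with `g² ∈ W` and `u ∈ W`, `(cg g u)² ∈ Z₂`
-/

set_option autoImplicit false

namespace Cfsg.Agent.Lib.Helper20.RUW

open Cfsg.Agent.Lib.Helper49.RUW

universe u

theorem pkgSqG : PkgSqG.{u} := by
  intro T _ _ W A Z₂ Z₃ hWn hZ g hgA hgW hgg u hu
  obtain ⟨u', hu'⟩ : ∃ u' : T, u' = g * u * g⁻¹ := ⟨_, rfl⟩
  have hu'W : u' ∈ W := by rw [hu']; exact hWn.conj_mem u hu g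
  obtain ⟨e, he⟩ : ∃ e : T, e = u * u' * u⁻¹ * u'⁻¹ := ⟨_, rfl⟩
  have heZ : e ∈ Z₃ := by rw [he]; exact hZ.commW u hu u' hu'W
  have hee : e * e = 1 := hZ.exp e heZ
  -- `g` commutes with `e`
  obtain ⟨z', hz'⟩ : ∃ z' : T, z' = u⁻¹ * (g * g) * u * (g * g)⁻¹ := ⟨_, rfl⟩
  have hz'Z : z' ∈ Z₃ := by
    rw [hz']
    have h := hZ.commW u⁻¹ (W.inv_mem hu) (g * g) hgg
    rwa [inv_inv] at h
  have hcomm : u'⁻¹ * z' = z' * u'⁻¹ := hZ.cenW u'⁻¹ (W.inv_mem hu'W) z' hz'Z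
  have hge : g * e * g⁻¹ = e := by
    have h1 : g * e * g⁻¹ = u' * (u * z') * u'⁻¹ * (u * z')⁻¹ := by
      rw [he, hz', hu']; group
    have h2 : u' * (u * z') * u'⁻¹ * (u * z')⁻¹ = e⁻¹ := by
      calc u' * (u * z') * u'⁻¹ * (u * z')⁻¹ = u' * u * (z' * u'⁻¹) * z'⁻¹ * u⁻¹ := by group
        _ = u' * u * (u'⁻¹ * z') * z'⁻¹ * u⁻¹ := by rw [hcomm]
        _ = e⁻¹ := by rw [he]; group
    rw [h1, h2]
    exact inv_eq_of_mul_eq_one_left hee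
  -- the centralizer of `g` in `Z₃` is `Z₂`
  obtain ⟨C, hC⟩ : ∃ C : Subgroup T, C = Z₃ ⊓ Subgroup.centralizer {g} := ⟨_, rfl⟩
  have hZ2C : Z₂ ≤ C := by
    rw [hC]
    intro z hz
    rw [Subgroup.mem_inf]
    refine ⟨hZ.Z23 hz, ?_⟩
    rw [Subgroup.mem_centralizer_iff]
    intro x hx
    rw [Set.mem_singleton_iff] at hx
    rw [hx]
    exact hZ.cenA g hgA z hz
  have hCZ3 : C ≤ Z₃ := by rw [hC]; exact inf_le_left
  have hCne : C ≠ Z₃ := by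
    intro h
    obtain ⟨z, hz, hne⟩ := hZ.notW g hgW
    have hzC : z ∈ C := by rw [h]; exact hz
    rw [hC, Subgroup.mem_inf] at hzC
    have h2 := hzC.2
    rw [Subgroup.mem_centralizer_iff] at h2
    exact hne (h2 g rfl)
  have hcardC : Nat.card C = 4 := by
    have hdvd : Nat.card C ∣ 8 := by rw [← hZ.card3]; exact Subgroup.card_dvd_of_le hCZ3
    have hge4 : 4 ≤ Nat.card C := by rw [← hZ.card2]; exact Subgroup.card_le_of_le hZ2C
    have hlt : Nat.card C < 8 := by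
      by_contra hcon
      exact hCne (Subgroup.eq_of_le_of_card_ge hCZ3 (by rw [hZ.card3]; omega))
    obtain ⟨n, hn⟩ : ∃ n : ℕ, n = Nat.card C := ⟨_, rfl⟩
    rw [← hn] at hdvd hge4 hlt ⊢
    interval_cases n
    · rfl
    · exact absurd hdvd (by decide)
    · exact absurd hdvd (by decide)
    · exact absurd hdvd (by decide)
  have hCeq : Z₂ = C := Subgroup.eq_of_le_of_card_ge hZ2C (by rw [hcardC, hZ.card2])
  have heZ2 : e ∈ Z₂ := by
    rw [hCeq, hC, Subgroup.mem_inf]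
    refine ⟨heZ, ?_⟩
    rw [Subgroup.mem_centralizer_iff]
    intro x hx
    rw [Set.mem_singleton_iff] at hx
    rw [hx]
    calc g * e = g * e * g⁻¹ * g := by group
      _ = e * g := by rw [hge]
  have hs : u * u ∈ Z₃ := hZ.sqW u hu
  have hcgs : cg g (u * u) ∈ Z₂ := hZ.act g (u * u) hs
  have key : cg g u * cg g u = e * cg g (u * u) := by
    have hc : (u * u)⁻¹ * e = e * (u * u)⁻¹ :=
      hZ.cenW (u * u)⁻¹ (W.inv_mem (hZ.Z3W hs)) e heZ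
    unfold cg
    calc u⁻¹ * (g * u * g⁻¹) * (u⁻¹ * (g * u * g⁻¹))
        = (u * u)⁻¹ * e * (g * (u * u) * g⁻¹) := by rw [he, hu']; group
      _ = e * (u * u)⁻¹ * (g * (u * u) * g⁻¹) := by rw [hc]
      _ = e * ((u * u)⁻¹ * (g * (u * u) * g⁻¹)) := by group
  rw [key]
  exact Z₂.mul_mem heZ2 hcgs

end Cfsg.Agent.Lib.Helper20.RUW
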